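import Mathlib.GroupTheory.Index
import Mathlib.GroupTheory.QuotientGroup.Basic
import Cfsg.Agent.Lib.PGroupFrattini
import Cfsg.Agent.Lib.OddLocal.CoprimeOdd

/-! Generators of `p`-groups whose elements of order `p` are central. -/

set_option autoImplicit false

namespace Cfsg.Agent.Lib.GenBound

open scoped commutatorElement
open Subgroup

variable {p : ℕ} [hp : Fact p.Prime]

/-- Every element killed by `p` is central. -/
def PCentral (p : ℕ) (C : Type*) [Group C] : Prop := ∀ x : C, x ^ p = 1 → x ∈ center C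

theorem mul_pow_prime {C : Type*} [Group C] (hp2 : p ≠ 2) {x y : C} (hc : ⁅y, x⁆ ∈ center C)
    (hz : ⁅y, x⁆ ^ p = 1) : (x * y) ^ p = x ^ p * y ^ p := by
  obtain ⟨-, h⟩ := OddLocal.mul_pow_of_central_commutator (x := x) (y := y) (z := ⁅y, x⁆)
    (mem_center_iff.1 hc x).symm (mem_center_iff.1 hc y).symm (by simp [commutatorElement_def, mul_assoc]) p
  obtain ⟨c, hc'⟩ : p ∣ p.choose 2 := Nat.Prime.dvd_choose_self hp.out two_ne_zero
    (lt_of_le_of_ne hp.out.two_le (Ne.symm hp2))
  rw [h, hc', pow_mul, hz, one_pow, mul_one]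

theorem commutator_pow_eq_one (hp2 : p ≠ 2) {C : Type*} [Group C] [Finite C] (hC : IsPGroup p C)
    (hcen : PCentral p C) (x : C) (hx : (x ^ p) ^ p = 1) (g : C) : ⁅g, x⁆ ^ p = 1 := by
  induction hn : Nat.card C using Nat.strong_induction_on generalizing C with
  | _ n ih =>
  subst hn
  rcases eq_top_or_exists_le_coatom (zpowers x) with htop | ⟨K, hK, hxK⟩
  · obtain ⟨i, rfl⟩ := mem_zpowers_iff.1 (htop.ge (mem_top g))
    rw [commutatorElement_eq_one_iff_commute.2 ((Commute.refl x).zpow_left i), one_pow]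
  haveI := (PGroupFrattini.coatom_index hC hK).1
  have hxm : x ∈ K := hxK (mem_zpowers x)
  set a := g * x * g⁻¹ with ha
  have ham : a ∈ K := Subgroup.Normal.conj_mem inferInstance x hxm g
  have hcard : Nat.card K < Nat.card C :=
    lt_of_le_of_ne (Nat.card_le_card_of_injective _ K.subtype_injective) fun h => hK.1 (eq_top_of_card_eq K h)
  have hKc : PCentral p K := fun z hz => mem_center_iff.2 fun w =>
    Subtype.ext (mem_center_iff.1 (hcen (z : C) (by simpa using congrArg Subtype.val hz)) w)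
  have h1 := congrArg Subtype.val (ih _ hcard (hC.to_subgroup K) hKc ⟨x, hxm⟩ (Subtype.ext (by simpa using hx)) ⟨a, ham⟩ rfl)
  simp only [Subgroup.coe_pow, Subgroup.coe_one] at h1
  have h1' : ⁅a, x⁆ ^ p = 1 := by simpa [commutatorElement_def] using h1
  have hap : a ^ p = x ^ p := by
    rw [ha, conj_pow, mem_center_iff.1 (hcen _ hx) g, mul_inv_cancel_right]
  have hgx : ⁅g, x⁆ = a * x⁻¹ := rfl
  have hz : ⁅x⁻¹, a⁆ = x⁻¹ * ⁅a, x⁆ * x := by simp [commutatorElement_def, mul_assoc]
  have hzc : ⁅x⁻¹, a⁆ = ⁅a, x⁆ := by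
    rw [hz, ← mem_center_iff.1 (hcen _ h1') x⁻¹ |>.symm, mul_assoc, inv_mul_cancel, mul_one]
  rw [hgx, mul_pow_prime hp2 (hzc ▸ hcen _ h1') (hzc ▸ h1'), inv_pow, hap, mul_inv_cancel]

/-- The elements killed by `p`. -/
def omegaC {C : Type*} [Group C] (hcen : PCentral p C) : Subgroup C where
  carrier := {x | x ^ p = 1}
  one_mem' := one_pow p
  mul_mem' {x y} hx hy := by
    show (x * y) ^ p = 1
    rw [(show Commute x y from (mem_center_iff.1 (hcen y hy) x)).mul_pow, hx, hy, one_mul]
  inv_mem' {x} hx := by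
    show x⁻¹ ^ p = 1
    rw [inv_pow, hx, inv_one]

/-- In a `p`-central group, `|C : ℧₁(C)| ≤ |Ω₁(C)|`. -/
theorem index_agemo_le (hp2 : p ≠ 2) {C : Type*} [Group C] [Finite C] (hC : IsPGroup p C)
    (hcen : PCentral p C) :
    (closure (Set.range fun x : C => x ^ p)).index ≤ Nat.card {x : C // x ^ p = 1} := by
  induction hn : Nat.card C using Nat.strong_induction_on generalizing C with
  | _ n ih =>
  subst hn
  set O := omegaC hcen
  haveI hOn : O.Normal := ⟨fun z hz g => by
    rwa [mem_center_iff.1 (hcen z hz) g, mul_inv_cancel_right]⟩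
  set U := closure (Set.range fun x : C => x ^ p) with hU
  by_cases htriv : Nontrivial C
  swap
  · rw [not_nontrivial_iff_subsingleton] at htriv
    rw [Subsingleton.elim U ⊤, index_top]
    exact Nat.one_le_iff_ne_zero.2 (Nat.pos_iff_ne_zero.1 (@Nat.card_pos _ ⟨⟨1, one_pow p⟩⟩ _))
  have hO1 : O ≠ ⊥ := fun h => by
    obtain ⟨k, hk⟩ := IsPGroup.iff_card.1 hC
    have hk0 : k ≠ 0 := fun h0 => by
      rw [h0, pow_zero] at hk
      exact absurd hk (Finite.one_lt_card (α := C)).ne'
    obtain ⟨z, hz⟩ := exists_prime_orderOf_dvd_card' (G := C) p (hk ▸ dvd_pow_self p hk0)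
    have hz1 : z ∈ O := show z ^ p = 1 from hz ▸ pow_orderOf_eq_one z
    rw [h, mem_bot] at hz1
    rw [hz1, orderOf_one] at hz
    exact hp.out.one_lt.ne hz
  have hmk : ∀ {w : C}, ((w : C ⧸ O)) = 1 ↔ w ^ p = 1 := fun {w} => QuotientGroup.eq_one_iff w
  have hQc : PCentral p (C ⧸ O) := fun y hy => by
    induction y using QuotientGroup.induction_on with
    | H x =>
    rw [← QuotientGroup.mk_pow, hmk] at hy
    refine mem_center_iff.2 fun w => ?_
    induction w using QuotientGroup.induction_on with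
    | H g =>
    rw [← commutatorElement_eq_one_iff_mul_comm]
    exact hmk.2 (commutator_pow_eq_one hp2 hC hcen x hy g)
  have hlt : Nat.card (C ⧸ O) < Nat.card C := by
    rw [card_eq_card_quotient_mul_card_subgroup O]
    exact lt_mul_of_one_lt_right Nat.card_pos ((one_lt_card_iff_ne_bot O).2 hO1)
  have hIH := ih _ hlt (hC.to_quotient O) hQc rfl
  have hmap : (closure (Set.range fun y : C ⧸ O => y ^ p)) = U.map (QuotientGroup.mk' O) := by
    rw [hU, MonoidHom.map_closure, ← Set.range_comp]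
    congr 1
    ext y
    constructor
    · rintro ⟨z, rfl⟩
      induction z using QuotientGroup.induction_on with
      | H x => exact ⟨x, rfl⟩
    · rintro ⟨x, rfl⟩
      exact ⟨x, rfl⟩
  rw [hmap, index_map, QuotientGroup.ker_mk', MonoidHom.range_eq_top.2 (QuotientGroup.mk'_surjective O),
    index_top, mul_one] at hIH
  have hinj : Nat.card {y : C ⧸ O // y ^ p = 1} ≤ Nat.card ↥(U ⊓ O) := by
    have hout : ∀ y : {y : C ⧸ O // y ^ p = 1}, (y.1.out ^ p) ^ p = 1 := fun y => by
      rw [← hmk, QuotientGroup.mk_pow, QuotientGroup.out_eq']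
      exact y.2
    refine Nat.card_le_card_of_injective
      (fun y => (⟨y.1.out ^ p, subset_closure ⟨_, rfl⟩, hout y⟩ : ↥(U ⊓ O))) fun y y' h => ?_
    have h' : y.1.out ^ p = y'.1.out ^ p := congrArg Subtype.val h
    have hc1 := commutator_pow_eq_one hp2 hC hcen _ (hout y) y'.1.out⁻¹
    apply Subtype.ext
    rw [← y.1.out_eq', ← y'.1.out_eq', QuotientGroup.eq_iff_div_mem]
    show (y.1.out / y'.1.out) ^ p = 1
    rw [div_eq_mul_inv, mul_pow_prime hp2 (hcen _ hc1) hc1, inv_pow, h', mul_inv_cancel]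
  haveI hUn : U.Normal := ⟨fun w hw g => by
    have hle : U ≤ U.comap (MulAut.conj g).toMonoidHom := (closure_le _).2 (Set.range_subset_iff.2 fun x =>
      subset_closure ⟨g * x * g⁻¹, conj_pow⟩)
    exact hle hw⟩
  have hsum : U.index = (U ⊔ O).index * U.relIndex O := by
    rw [← relIndex_sup_right, sup_comm O U, mul_comm, relIndex_mul_index le_sup_left]
  have hO : Nat.card O = Nat.card ↥(U ⊓ O) * U.relIndex O := by
    rw [← inf_relIndex_right, ← Nat.card_congr (subgroupOfEquivOfLe (show U ⊓ O ≤ O from inf_le_right)).toEquiv,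
      relIndex, card_mul_index]
  calc U.index = (U ⊔ O).index * U.relIndex O := hsum
    _ ≤ Nat.card ↥(U ⊓ O) * U.relIndex O := Nat.mul_le_mul_right _ (hIH.trans hinj)
    _ = Nat.card O := hO.symm
    _ = _ := rfl

/-- A subgroup of index at most `p ^ k` in a `p`-group is supplemented by `k` elements. -/
theorem exists_supplement {C : Type*} [Group C] [Finite C] (hC : IsPGroup p C) (k : ℕ) :
    ∀ N : Subgroup C, N.index ≤ p ^ k → ∃ S : Finset C, S.card ≤ k ∧ closure (S : Set C) ⊔ N = ⊤ := by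
  classical
  induction k with
  | zero =>
    intro N hN
    refine ⟨∅, le_rfl, ?_⟩
    have : N = ⊤ := index_eq_one.1 (le_antisymm (by simpa using hN) (Nat.one_le_iff_ne_zero.2 index_ne_zero_of_finite))
    rw [this]
    exact sup_top_eq _
  | succ k ih =>
    intro N hN
    by_cases hNt : N = ⊤
    · exact ⟨∅, Nat.zero_le _, by rw [hNt, sup_top_eq]⟩
    obtain ⟨x, -, hx⟩ := SetLike.exists_of_lt (lt_top_iff_ne_top.2 hNt)
    set N' := N ⊔ zpowers x
    have hlt : N < N' := lt_of_le_of_ne le_sup_left fun h => hx (h.ge (mem_sup_right (mem_zpowers x)))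
    have hidx : N'.index ≤ p ^ k := by
      obtain ⟨a, ha⟩ := hC.index N
      obtain ⟨b, hb⟩ := hC.index N'
      have h1 := index_strictAnti hlt
      rw [ha] at hN h1
      rw [hb] at h1 ⊢
      have := (Nat.pow_le_pow_iff_right hp.out.one_lt).1 hN
      have := (Nat.pow_lt_pow_iff_right hp.out.one_lt).1 h1
      exact Nat.pow_le_pow_right hp.out.pos (by omega)
    obtain ⟨S, hS, hSN⟩ := ih N' hidx
    refine ⟨insert x S, (Finset.card_insert_le _ _).trans (by omega), eq_top_iff.2 (hSN ▸ ?_)⟩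
    refine sup_le (le_sup_of_le_left (closure_mono (by simp))) (sup_le le_sup_right ?_)
    exact le_sup_of_le_left (zpowers_le.2 (subset_closure (by simp)))

theorem exists_gens_of_pCentral (hp2 : p ≠ 2) {C : Type*} [Group C] [Finite C] (hC : IsPGroup p C)
    (hcen : PCentral p C) (k : ℕ) (hk : Nat.card {x : C // x ^ p = 1} ≤ p ^ k) :
    ∃ S : Finset C, S.card ≤ k ∧ closure (S : Set C) = ⊤ := by
  have hle : closure (Set.range fun x : C => x ^ p) ≤ frattini C :=
    (closure_le _).2 (Set.range_subset_iff.2 (PGroupFrattini.pow_mem_frattini hC))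
  obtain ⟨S, hS, hSF⟩ := exists_supplement hC k (frattini C)
    ((index_antitone hle).trans ((index_agemo_le hp2 hC hcen).trans hk))
  exact ⟨S, hS, frattini_nongenerating hSF⟩

end Cfsg.Agent.Lib.GenBound
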