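import Mathlib.LinearAlgebra.Matrix.ToLin
import Mathlib.Algebra.Module.ZMod
import Mathlib.LinearAlgebra.Dimension.Constructions
import Cfsg.Agent.Lib.Uniq.PGroup
import Cfsg.Agent.Lib.Transfer.Alperin

/-! The triangular representation of a `p`-group on a normal elementary abelian subgroup. -/

set_option autoImplicit false

namespace Cfsg.Agent.Lib.GenBound

open scoped commutatorElement
open Subgroup

variable {P : Type*} [Group P] [Finite P] {p : ℕ} [hp : Fact p.Prime]

theorem exists_flag (hP : IsPGroup p P) (N : Subgroup P) [N.Normal] (hN : ∀ x ∈ N, x ^ p = 1) :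
    ∃ (m : ℕ) (e : Fin m → P), closure (Set.range e) = N ∧ Nat.card N = p ^ m ∧
      ∀ (g : P) (i : Fin m), ⁅g, e i⁆ ∈ closure (e '' {l | l < i}) := by
  induction hn : Nat.card N using Nat.strong_induction_on generalizing N with
  | _ n ih =>
  subst hn
  by_cases hNb : N = ⊥
  · subst hNb
    exact ⟨0, Fin.elim0, by simp, by simp, fun _ i => i.elim0⟩
  obtain ⟨N', ⟨hN'n, hN'⟩, hmax⟩ :=
    (Set.toFinite {K : Subgroup P | K.Normal ∧ K < N}).exists_maximal ⟨⊥, inferInstance, bot_lt_iff_ne_bot.2 hNb⟩
  haveI := hN'n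
  set f := QuotientGroup.mk' N'
  have hbar : N.map f ≠ ⊥ := fun h => by
    rw [Subgroup.map_eq_bot_iff, QuotientGroup.ker_mk'] at h
    exact not_le_of_gt hN' h
  haveI : (N.map f).Normal := Subgroup.Normal.map inferInstance f (QuotientGroup.mk'_surjective N')
  obtain ⟨w, hw, hw1, hwc⟩ := Uniq.exists_central_mem (hP.to_quotient N') (N.map f) hbar
  obtain ⟨z, hz, rfl⟩ := hw
  have hcomm : ∀ g : P, ⁅g, z⁆ ∈ N' := fun g => by
    rw [← QuotientGroup.eq_one_iff, ← QuotientGroup.mk'_apply, map_commutatorElement, commutatorElement_eq_one_iff_mul_comm]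
    exact mem_center_iff.1 hwc _
  have hzN' : z ∉ N' := fun h => hw1 ((QuotientGroup.eq_one_iff z).2 h)
  have hsupn : (N' ⊔ zpowers z).Normal := ⟨fun w hw g => by
    have hle : N' ⊔ zpowers z ≤ (N' ⊔ zpowers z).comap (MulAut.conj g).toMonoidHom := by
      refine sup_le (fun a ha => mem_sup_left (Subgroup.Normal.conj_mem inferInstance a ha g)) (zpowers_le.2 ?_)
      show g * z * g⁻¹ ∈ N' ⊔ zpowers z
      have := mul_mem (mem_sup_left (T := zpowers z) (hcomm g)) (mem_sup_right (mem_zpowers z))
      simpa [commutatorElement_def] using this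
    exact hle hw⟩
  have hsup : N' ⊔ zpowers z = N := by
    rcases (sup_le hN'.le (zpowers_le.2 hz)).lt_or_eq with h | h
    · exact absurd (hmax ⟨hsupn, h⟩ le_sup_left (mem_sup_right (mem_zpowers z))) hzN'
    · exact h
  obtain ⟨m, e, he, hem, hec⟩ := ih _ (Transfer.card_lt_of_subgroup_lt hN') N' (fun x hx => hN x (hN'.le hx)) rfl
  refine ⟨m + 1, Fin.snoc e z, ?_, ?_, fun g i => ?_⟩
  · rw [Fin.range_snoc, Set.insert_eq, Subgroup.closure_union, he, ← zpowers_eq_closure, sup_comm, hsup]
  · have hord : orderOf z = p := orderOf_eq_prime (hN z hz) fun h => hzN' (h ▸ one_mem N')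
    have hc := Subgroup.card_mul_index (N'.subgroupOf N)
    have hidx : (N'.subgroupOf N).index = p := by
      show N'.relIndex N = p
      rw [← hsup, sup_comm, relIndex_sup_right, ← inf_relIndex_right]
      have hbot : N' ⊓ zpowers z = ⊥ := by
        rw [eq_bot_iff]
        intro y ⟨hy1, hy2⟩
        by_contra hy
        refine hzN' ((zpowers_le.2 hy1) ?_)
        have hyo : orderOf y = p := orderOf_eq_prime (hN y (hN'.le hy1)) hy
        have heq : zpowers y = zpowers z := eq_of_le_of_card_ge (zpowers_le.2 hy2)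
          (by rw [Nat.card_zpowers, Nat.card_zpowers, hyo, hord])
        rw [heq]
        exact mem_zpowers z
      rw [hbot, relIndex_bot_left, Nat.card_zpowers, hord]
    rw [Nat.card_congr (subgroupOfEquivOfLe hN'.le).toEquiv, hem, hidx, ← pow_succ] at hc
    exact hc.symm
  · induction i using Fin.lastCases with
    | last =>
      rw [Fin.snoc_last]
      refine closure_mono ?_ (he.ge (hcomm g))
      rintro _ ⟨l, rfl⟩
      exact ⟨l.castSucc, Fin.castSucc_lt_last l, Fin.snoc_castSucc ..⟩
    | cast i =>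
      rw [Fin.snoc_castSucc]
      refine closure_mono ?_ (hec g i)
      rintro _ ⟨l, hl, rfl⟩
      exact ⟨l.castSucc, Fin.castSucc_lt_castSucc_iff.2 hl, Fin.snoc_castSucc ..⟩

open scoped IsMulCommutative in
/-- The conjugation action on a normal elementary abelian subgroup of order `p ^ m`, in triangular form. -/
theorem exists_tri_rep (hP : IsPGroup p P) (E : Subgroup P) [E.Normal] (hE : IsElementaryAbelian p E) :
    ∃ (m : ℕ) (M : P →* Matrix (Fin m) (Fin m) (ZMod p)), Nat.card E = p ^ m ∧
      (∀ g, (∀ i, M g i i = 1) ∧ ∀ i j, j < i → M g i j = 0) ∧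
      ∀ g, M g = 1 → g ∈ centralizer (E : Set P) := by
  classical
  haveI := hE.1
  obtain ⟨m, e, he, hcard, hflag⟩ := exists_flag hP E hE.2
  have hexp : ∀ x : Additive ↥E, p • x = 0 := fun x => by
    apply Additive.toMul.injective
    apply Subtype.ext
    simpa using hE.2 _ (Additive.toMul x).2
  letI : Module (ZMod p) (Additive ↥E) := AddCommGroup.zmodModule (n := p) (G := Additive ↥E) hexp
  let v : Fin m → Additive E := fun i => Additive.ofMul ⟨e i, he.le (subset_closure ⟨i, rfl⟩)⟩
  have key : ∀ (s : Set (Fin m)) (x : E), (x : P) ∈ closure (e '' s) →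
      (Additive.ofMul x : Additive ↥E) ∈ (Submodule.span (ZMod p) (v '' s) : Submodule (ZMod p) (Additive ↥E)) := by
    intro s x hx
    have h : ∀ y, y ∈ closure (e '' s) → ∃ hy : y ∈ E,
        (Additive.ofMul (⟨y, hy⟩ : E) : Additive ↥E) ∈ (Submodule.span (ZMod p) (v '' s) : Submodule (ZMod p) (Additive ↥E)) := by
      intro y hy
      induction hy using closure_induction with
      | mem y hy =>
        obtain ⟨i, hi, rfl⟩ := hy
        exact ⟨he.le (subset_closure ⟨i, rfl⟩), Submodule.subset_span ⟨i, hi, rfl⟩⟩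
      | one => exact ⟨one_mem E, Submodule.zero_mem _⟩
      | mul a b _ _ iha ihb => exact ⟨mul_mem iha.1 ihb.1, Submodule.add_mem _ iha.2 ihb.2⟩
      | inv a _ iha => exact ⟨inv_mem iha.1, Submodule.neg_mem _ iha.2⟩
    exact (h _ hx).2
  have hspan : ⊤ ≤ Submodule.span (ZMod p) (Set.range v) := fun x _ => by
    rw [← Set.image_univ]
    exact key Set.univ (Additive.toMul x) (by rw [Set.image_univ, he]; exact (Additive.toMul x).2)
  have hfr : Fintype.card (Fin m) = Module.finrank (ZMod p) (Additive E) := by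
    have h := Module.natCard_eq_pow_finrank (K := ZMod p) (V := Additive E)
    rw [Nat.card_congr Additive.toMul, hcard, Nat.card_zmod] at h
    rw [Fintype.card_fin]
    exact Nat.pow_right_injective hp.out.two_le h
  let b : Module.Basis (Fin m) (ZMod p) (Additive E) :=
    Module.Basis.mk (linearIndependent_of_top_le_span_of_card_eq_finrank hspan hfr) hspan
  have hb : ⇑b = v := Module.Basis.coe_mk _ _
  let ρ₀ : P → Module.End (ZMod p) (Additive E) := fun g =>
    (MonoidHom.toAdditive (MulAut.conjNormal g : MulAut E).toMonoidHom).toZModLinearMap p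
  have hρ : ∀ g x, ((Additive.toMul (ρ₀ g x) : E) : P) = g * ((Additive.toMul x : E) : P) * g⁻¹ := fun g x => by
    show ((MulAut.conjNormal g (Additive.toMul x) : E) : P) = _
    rw [MulAut.conjNormal_apply]
  have hext : ∀ {x y : Additive E}, ((Additive.toMul x : E) : P) = (Additive.toMul y : E) → x = y :=
    fun h => Additive.toMul.injective (Subtype.ext h)
  let M : P →* Matrix (Fin m) (Fin m) (ZMod p) :=
    { toFun := fun g => LinearMap.toMatrix b b (ρ₀ g)
      map_one' := by
        rw [show ρ₀ 1 = LinearMap.id from LinearMap.ext fun x => hext (by rw [hρ]; simp), LinearMap.toMatrix_id]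
      map_mul' := fun g h => by
        rw [← LinearMap.toMatrix_comp]
        congr 1
        exact LinearMap.ext fun x => hext (by rw [LinearMap.comp_apply, hρ, hρ, hρ]; group) }
  refine ⟨m, M, hcard, fun g => ?_, fun g hg => ?_⟩
  · have hcol : ∀ j i, M g i j = b.repr (ρ₀ g (v j) - v j) i + b.repr (b j) i := fun j i => by
      show LinearMap.toMatrix b b (ρ₀ g) i j = _
      rw [LinearMap.toMatrix_apply, hb, map_sub, Finsupp.sub_apply, sub_add_cancel]
    have hlow : ∀ j i, ¬ i < j → b.repr (ρ₀ g (v j) - v j) i = 0 := fun j i hij => by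
      have hmem : ρ₀ g (v j) - v j ∈ Submodule.span (ZMod p) (b '' {l | l < j}) := by
        rw [hb]
        refine key _ (Additive.toMul (ρ₀ g (v j) - v j)) ?_
        convert hflag g j using 1
        rw [toMul_sub, Subgroup.coe_div, hρ, div_eq_mul_inv]
        rfl
      by_contra hne
      exact hij (b.mem_span_image.1 hmem (Finsupp.mem_support_iff.2 hne))
    refine ⟨fun i => ?_, fun i j hji => ?_⟩
    · rw [hcol, hlow i i (lt_irrefl i), zero_add, b.repr_self, Finsupp.single_eq_same]
    · rw [hcol, hlow j i hji.le.not_gt, zero_add, b.repr_self, Finsupp.single_eq_of_ne hji.ne']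
  · have hid : ρ₀ g = LinearMap.id := (LinearMap.toMatrix b b).injective (hg.trans (LinearMap.toMatrix_id b).symm)
    refine mem_centralizer_iff.2 fun y hy => ?_
    have h := hρ g (Additive.ofMul (⟨y, hy⟩ : E))
    rw [hid] at h
    exact eq_mul_inv_iff_mul_eq.1 h

end Cfsg.Agent.Lib.GenBound
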