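import Mathlib.Combinatorics.SimpleGraph.Extremal.Turan
import Mathlib.LinearAlgebra.Matrix.Notation
import Mathlib.Data.Matrix.Mul
import Mathlib.Tactic
import Cfsg.Agent.Lib.PGroupFrattini

/-! Subgroups of unitriangular groups need at most `m² / 4` generators. -/

set_option autoImplicit false

namespace Cfsg.Agent.Lib.GenBound

open scoped commutatorElement
open Subgroup

variable {m : ℕ}

/-- The weight of a position above the diagonal. -/
def wt (i j : Fin m) : ℕ := 2 ^ (j : ℕ) - 2 ^ (i : ℕ)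

theorem wt_add {i l j : Fin m} (h1 : i ≤ l) (h2 : l ≤ j) : wt i j = wt i l + wt l j := by
  have a := Nat.pow_le_pow_right (show 1 ≤ 2 by omega) (show (i : ℕ) ≤ l from h1)
  have b := Nat.pow_le_pow_right (show 1 ≤ 2 by omega) (show (l : ℕ) ≤ j from h2)
  simp only [wt]
  omega

theorem wt_lt (i j : Fin m) : wt i j < 2 ^ m :=
  lt_of_le_of_lt (Nat.sub_le _ _) (Nat.pow_lt_pow_right (by omega) j.2)

theorem wt_pos {i j : Fin m} (h : i < j) : 0 < wt i j :=
  Nat.sub_pos_of_lt (Nat.pow_lt_pow_right (by omega) h)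

theorem wt_inj {i j a b : Fin m} (hij : i < j) (hab : a < b) (h : wt i j = wt a b) : i = a ∧ j = b := by
  have key : ∀ {i j a b : ℕ}, i < j → a < b → 2 ^ j + 2 ^ a = 2 ^ b + 2 ^ i → a ≤ i := by
    intro i j a b hij hab h
    by_contra hlt
    push Not at hlt
    have h1 : 2 ^ (i + 1) ∣ 2 ^ b + 2 ^ i := h ▸ dvd_add (pow_dvd_pow 2 hij) (pow_dvd_pow 2 hlt)
    have h2 := Nat.le_of_dvd (Nat.two_pow_pos i)
      ((Nat.dvd_add_right (pow_dvd_pow 2 (show i + 1 ≤ b by omega))).1 h1)
    have := Nat.pow_lt_pow_right (show 1 < 2 by omega) (show i < i + 1 by omega)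
    omega
  have p1 := Nat.pow_lt_pow_right (show 1 < 2 by omega) (show (i : ℕ) < j from hij)
  have p2 := Nat.pow_lt_pow_right (show 1 < 2 by omega) (show (a : ℕ) < b from hab)
  simp only [wt] at h
  have e : 2 ^ (j : ℕ) + 2 ^ (a : ℕ) = 2 ^ (b : ℕ) + 2 ^ (i : ℕ) := by omega
  have h1 := key (show (i : ℕ) < j from hij) (show (a : ℕ) < b from hab) e
  have h2 := key (show (a : ℕ) < b from hab) (show (i : ℕ) < j from hij) e.symm
  have hia : i = a := Fin.ext (by omega)
  subst hia
  exact ⟨rfl, Fin.ext (Nat.pow_right_injective (le_refl 2) (show 2 ^ (j : ℕ) = 2 ^ (b : ℕ) by omega))⟩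

/-- Mantel: a set of increasing pairs without triangle has at most `m² / 4` elements. -/
theorem card_pairs_le (S : Finset (Fin m × Fin m)) (hlt : ∀ x ∈ S, x.1 < x.2)
    (htri : ∀ i l j, (i, l) ∈ S → (l, j) ∈ S → (i, j) ∉ S) : S.card ≤ m ^ 2 / 4 := by
  classical
  let G := SimpleGraph.fromRel fun i j => (i, j) ∈ S
  have hadj : ∀ {i j}, G.Adj i j → i < j → (i, j) ∈ S := fun {i j} h hij => by
    rcases h.2 with h | h
    · exact h
    · exact absurd (hlt _ h) (not_lt.2 hij.le)
  have hcf : G.CliqueFree (2 + 1) := by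
    intro s hs
    obtain ⟨a, b, c, hab, hac, hbc, rfl⟩ := SimpleGraph.is3Clique_iff.1 hs
    have key : ∀ {x y z}, x < y → y < z → G.Adj x y → G.Adj y z → G.Adj x z → False :=
      fun hxy hyz h1 h2 h3 => htri _ _ _ (hadj h1 hxy) (hadj h2 hyz) (hadj h3 (hxy.trans hyz))
    rcases lt_trichotomy a b with h1 | h1 | h1 <;> rcases lt_trichotomy b c with h2 | h2 | h2 <;>
      rcases lt_trichotomy a c with h3 | h3 | h3
    all_goals first
      | exact hab.ne h1
      | exact hbc.ne h2
      | exact hac.ne h3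
      | exact key h1 h2 hab hbc hac
      | exact key h3 h2 hac hbc.symm hab
      | exact key h1 h3 hab.symm hac hbc
      | exact key h3 h1 hac.symm hab hbc.symm
      | exact key h2 h3 hbc hac.symm hab.symm
      | exact key h2 h1 hbc.symm hab.symm hac.symm
      | omega
  have h1 : S.card ≤ G.edgeFinset.card := by
    refine Finset.card_le_card_of_injOn (fun x => s(x.1, x.2)) (fun x hx => ?_) (fun x hx y hy h => ?_)
    · exact SimpleGraph.mem_edgeFinset.2 ⟨(hlt x hx).ne, Or.inl hx⟩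
    · rcases Sym2.eq_iff.1 h with ⟨e1, e2⟩ | ⟨e1, e2⟩
      · exact Prod.ext e1 e2
      · exact absurd (e1 ▸ e2 ▸ hlt x hx) (not_lt.2 (hlt y hy).le)
  have h2 := hcf.card_edgeFinset_le
  simp only [Fintype.card_fin] at h2
  refine h1.trans (h2.trans ?_)
  have hmod : (m % 2).choose 2 = 0 := Nat.choose_eq_zero_of_lt (Nat.mod_lt m (by omega))
  rw [hmod, add_zero, show (2 : ℕ) - 1 = 1 from rfl, mul_one]
  exact Nat.div_le_div_right (Nat.sub_le _ _)

variable {H : Type*} [Group H] {R : Type*} [CommRing R] {M : H →* Matrix (Fin m) (Fin m) R}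

/-- The image is upper unitriangular. -/
def IsTri (M : H →* Matrix (Fin m) (Fin m) R) : Prop :=
  ∀ h, (∀ i, M h i i = 1) ∧ ∀ i j, j < i → M h i j = 0

/-- Elements vanishing below weight `a`. -/
def Lev (M : H →* Matrix (Fin m) (Fin m) R) (a : ℕ) (h : H) : Prop :=
  ∀ i j, i < j → wt i j < a → M h i j = 0

theorem mul_apply_tri (hM : IsTri M) (u v : H) {i j : Fin m} (hij : i < j) :
    M (u * v) i j = M u i j + M v i j + ∑ l ∈ Finset.Ioo i j, M u i l * M v l j := by
  classical
  rw [map_mul, Matrix.mul_apply, ← Finset.sum_subset (Finset.subset_univ (Finset.Icc i j))]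
  · rw [show Finset.Icc i j = insert i (insert j (Finset.Ioo i j)) by
      ext x; simp only [Finset.mem_Icc, Finset.mem_insert, Finset.mem_Ioo]; omega]
    rw [Finset.sum_insert (by simp [hij.ne]), Finset.sum_insert (by simp), (hM u).1, (hM v).1, one_mul, mul_one]
    ring
  · intro x _ hx
    simp only [Finset.mem_Icc, not_and, not_le] at hx
    by_cases hix : i ≤ x
    · rw [(hM v).2 x j (hx hix), mul_zero]
    · rw [(hM u).2 i x (not_le.1 hix), zero_mul]

theorem mul_apply_low (hM : IsTri M) {a b : ℕ} {u v : H} (hu : Lev M a u) (hv : Lev M b v) {i j : Fin m}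
    (hij : i < j) (hw : wt i j < a + b) : M (u * v) i j = M u i j + M v i j := by
  rw [mul_apply_tri hM u v hij]
  refine add_eq_left.2 (Finset.sum_eq_zero fun l hl => ?_)
  rw [Finset.mem_Ioo] at hl
  rw [wt_add hl.1.le hl.2.le] at hw
  rcases Nat.lt_or_ge (wt i l) a with h | h
  · rw [hu i l hl.1 h, zero_mul]
  · rw [hv l j hl.2 (by omega), mul_zero]

theorem lev_mul (hM : IsTri M) {a : ℕ} {u v : H} (hu : Lev M a u) (hv : Lev M a v) : Lev M a (u * v) :=
  fun i j hij hw => by rw [mul_apply_low hM hu hv hij (by omega), hu i j hij hw, hv i j hij hw, add_zero]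

theorem lev_one (a : ℕ) : Lev M a 1 := fun i j hij _ => by rw [map_one, Matrix.one_apply_ne hij.ne]

theorem lev_pow (hM : IsTri M) {a : ℕ} {u : H} (hu : Lev M a u) : ∀ n : ℕ, Lev M a (u ^ n)
  | 0 => by rw [pow_zero]; exact lev_one a
  | n + 1 => by rw [pow_succ]; exact lev_mul hM (lev_pow hM hu n) hu

theorem lev_inv [Finite H] (hM : IsTri M) {a : ℕ} {u : H} (hu : Lev M a u) : Lev M a u⁻¹ := by
  rw [inv_eq_of_mul_eq_one_right (show u * u ^ (orderOf u - 1) = 1 by
    rw [← pow_succ', Nat.sub_add_cancel (orderOf_pos u), pow_orderOf_eq_one])]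
  exact lev_pow hM hu _

theorem pow_apply_low (hM : IsTri M) {a : ℕ} {u : H} (hu : Lev M a u) {i j : Fin m} (hij : i < j)
    (hw : wt i j = a) (n : ℕ) : M (u ^ n) i j = n * M u i j := by
  induction n with
  | zero => rw [pow_zero, map_one, Matrix.one_apply_ne hij.ne, Nat.cast_zero, zero_mul]
  | succ n ih =>
    rw [pow_succ, mul_apply_low hM (lev_pow hM hu n) hu hij (by have := wt_pos hij; omega), ih, Nat.cast_succ]
    ring

theorem commutator_lev (hM : IsTri M) {u v : H} {i l j : Fin m} (hil : i < l) (hlj : l < j)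
    (hu : Lev M (wt i l) u) (hv : Lev M (wt l j) v) :
    Lev M (wt i j) ⁅u, v⁆ ∧ M ⁅u, v⁆ i j = M u i l * M v l j := by
  classical
  have hsum : wt i j = wt i l + wt l j := wt_add hil.le hlj.le
  have heq : ⁅u, v⁆ * (v * u) = u * v := by group
  have key : ∀ n, ∀ x y : Fin m, x < y → wt x y = n → n ≤ wt i j →
      M ⁅u, v⁆ x y = if x = i ∧ y = j then M u i l * M v l j else 0 := by
    intro n
    induction n using Nat.strong_induction_on with
    | _ n ih =>
    intro x y hxy hw hn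
    have h : M (⁅u, v⁆ * (v * u)) x y = M (u * v) x y := by rw [heq]
    rw [mul_apply_tri hM ⁅u, v⁆ (v * u) hxy, mul_apply_tri hM v u hxy, mul_apply_tri hM u v hxy] at h
    have h0 : ∑ z ∈ Finset.Ioo x y, M ⁅u, v⁆ x z * M (v * u) z y = 0 := Finset.sum_eq_zero fun z hz => by
      rw [Finset.mem_Ioo] at hz
      have hlt : wt x z < n := by rw [← hw, wt_add hz.1.le hz.2.le]; have := wt_pos hz.2; omega
      rw [ih _ hlt x z hz.1 rfl (by omega), if_neg (fun h => by
        have := congrArg₂ wt h.1 h.2; omega), zero_mul]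
    have h1 : ∑ z ∈ Finset.Ioo x y, M v x z * M u z y = 0 := Finset.sum_eq_zero fun z hz => by
      rw [Finset.mem_Ioo] at hz
      rcases Nat.lt_or_ge (wt x z) (wt l j) with h | h
      · rw [hv x z hz.1 h, zero_mul]
      rcases Nat.lt_or_ge (wt z y) (wt i l) with h' | h'
      · rw [hu z y hz.2 h', mul_zero]
      exfalso
      have e := wt_add hz.1.le hz.2.le
      obtain ⟨h1, -⟩ := wt_inj hz.1 hlj (show wt x z = wt l j by omega)
      obtain ⟨h2, h3⟩ := wt_inj hz.2 hil (show wt z y = wt i l by omega)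
      have := hz.1
      rw [h1, h2] at this
      exact absurd this (not_lt.2 hil.le)
    have h2 : ∑ z ∈ Finset.Ioo x y, M u x z * M v z y = if x = i ∧ y = j then M u i l * M v l j else 0 := by
      split_ifs with hp
      · obtain ⟨rfl, rfl⟩ := hp
        refine Finset.sum_eq_single l (fun z hz hzl => ?_) (fun h => absurd (Finset.mem_Ioo.2 ⟨hil, hlj⟩) h)
        rw [Finset.mem_Ioo] at hz
        rcases Nat.lt_or_ge (wt x z) (wt x l) with h | h
        · rw [hu x z hz.1 h, zero_mul]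
        rcases Nat.lt_or_ge (wt z y) (wt l y) with h' | h'
        · rw [hv z y hz.2 h', mul_zero]
        exfalso
        have e := wt_add hz.1.le hz.2.le
        exact hzl (wt_inj hz.1 hil (by omega)).2
      · refine Finset.sum_eq_zero fun z hz => ?_
        rw [Finset.mem_Ioo] at hz
        rcases Nat.lt_or_ge (wt x z) (wt i l) with h | h
        · rw [hu x z hz.1 h, zero_mul]
        rcases Nat.lt_or_ge (wt z y) (wt l j) with h' | h'
        · rw [hv z y hz.2 h', mul_zero]
        exfalso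
        have e := wt_add hz.1.le hz.2.le
        exact hp ⟨(wt_inj hz.1 hil (by omega)).1, (wt_inj hz.2 hlj (by omega)).2⟩
    rw [h0, h1, h2] at h
    linear_combination h
  refine ⟨fun x y hxy hw => ?_, ?_⟩
  · rw [key _ x y hxy rfl hw.le, if_neg]
    rintro ⟨rfl, rfl⟩
    exact lt_irrefl _ hw
  · rw [key _ i j (hil.trans hlj) rfl le_rfl, if_pos ⟨rfl, rfl⟩]

/-- A finite `p`-group with an upper unitriangular representation of degree `m` over `ZMod p` is generated
by at most `m² / 4` elements together with the kernel. -/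
theorem exists_gens [Finite H] {p : ℕ} [Fact p.Prime] (hH : IsPGroup p H)
    (M : H →* Matrix (Fin m) (Fin m) (ZMod p)) (hM : IsTri M) :
    ∃ S : Finset H, S.card ≤ m ^ 2 / 4 ∧ ∀ K : Subgroup H, (S : Set H) ⊆ K → (∀ h, M h = 1 → h ∈ K) → K = ⊤ := by
  classical
  let P : Finset (Fin m × Fin m) :=
    Finset.univ.filter fun x => x.1 < x.2 ∧ ∃ u, Lev M (wt x.1 x.2) u ∧ M u x.1 x.2 ≠ 0
  let I := P.filter fun x => ∀ l, (x.1, l) ∈ P → (l, x.2) ∉ P
  have hP : ∀ {i j}, (i, j) ∈ P ↔ i < j ∧ ∃ u, Lev M (wt i j) u ∧ M u i j ≠ 0 := fun {i j} => by simp [P]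
  choose! g hg using fun x (hx : x ∈ P) => ((Finset.mem_filter.1 hx).2.2)
  refine ⟨I.image g, Finset.card_image_le.trans (card_pairs_le I (fun x hx => ?_) fun i l j h1 h2 h3 => ?_), ?_⟩
  · exact (Finset.mem_filter.1 (Finset.mem_filter.1 hx).1).2.1
  · exact (Finset.mem_filter.1 h3).2 l (Finset.mem_filter.1 h1).1 (Finset.mem_filter.1 h2).1
  intro K hS hker
  set L := K ⊔ frattini H
  suffices hall : ∀ n a, 2 ^ m - a = n → ∀ u, Lev M a u → u ∈ L by
    exact frattini_nongenerating (eq_top_iff.2 fun u _ => hall _ 0 rfl u fun _ _ _ h => absurd h (Nat.not_lt_zero _))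
  intro n
  induction n using Nat.strong_induction_on with
  | _ n ih =>
  intro a ha u hu
  by_cases haB : 2 ^ m ≤ a
  · refine mem_sup_left (hker u (Matrix.ext fun i j => ?_))
    rcases lt_trichotomy i j with h | rfl | h
    · rw [hu i j h (lt_of_lt_of_le (wt_lt i j) haB), Matrix.one_apply_ne h.ne]
    · rw [(hM u).1, Matrix.one_apply_eq]
    · rw [(hM u).2 i j h, Matrix.one_apply_ne h.ne']
  have next' : ∀ v, Lev M (a + 1) v → v ∈ L := ih _ (by omega) (a + 1) rfl
  by_cases hpos : ∃ i j : Fin m, i < j ∧ wt i j = a ∧ M u i j ≠ 0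
  swap
  · refine next' u fun i j hij hw => ?_
    rcases Nat.lt_or_ge (wt i j) a with h | h
    · exact hu i j hij h
    · by_contra hne
      exact hpos ⟨i, j, hij, by omega, hne⟩
  obtain ⟨i, j, hij, rfl, hne⟩ := hpos
  have hmem : (i, j) ∈ P := hP.2 ⟨hij, u, hu, hne⟩
  obtain ⟨v, hvL, hv, hvne⟩ : ∃ v ∈ L, Lev M (wt i j) v ∧ M v i j ≠ 0 := by
    by_cases hI : (i, j) ∈ I
    · exact ⟨g (i, j), mem_sup_left (hS (Finset.mem_image_of_mem g hI)), hg _ hmem⟩
    obtain ⟨l, h1, h2⟩ : ∃ l, (i, l) ∈ P ∧ (l, j) ∈ P := by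
      by_contra hcon
      push Not at hcon
      exact hI (Finset.mem_filter.2 ⟨hmem, hcon⟩)
    obtain ⟨hil, x, hx, hxne⟩ := hP.1 h1
    obtain ⟨hlj, y, hy, hyne⟩ := hP.1 h2
    obtain ⟨hc, hce⟩ := commutator_lev hM hil hlj hx hy
    exact ⟨⁅x, y⁆, mem_sup_right (PGroupFrattini.commutator_le_frattini hH
      (commutator_mem_commutator (mem_top x) (mem_top y))), hc, by rw [hce]; exact mul_ne_zero hxne hyne⟩
  set t := (-(M u i j) / M v i j).val
  have hz : Lev M (wt i j + 1) (u * v ^ t) := by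
    intro x y hxy hw
    rcases Nat.lt_or_ge (wt x y) (wt i j) with h | h
    · exact lev_mul hM hu (lev_pow hM hv t) x y hxy h
    obtain ⟨rfl, rfl⟩ := wt_inj hxy hij (by omega)
    rw [mul_apply_low hM hu (lev_pow hM hv t) hxy (by have := wt_pos hxy; omega), pow_apply_low hM hv hxy rfl,
      ZMod.natCast_zmod_val, div_mul_cancel₀ _ hvne, add_neg_cancel]
  have := mul_mem (next' _ hz) (inv_mem (pow_mem hvL t))
  rwa [mul_inv_cancel_right] at this

end Cfsg.Agent.Lib.GenBound
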